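import Cfsg.Agent.H13.Co3.Def
import Cfsg.Agent.H282.LT.Perm

/-!
# S1920, case B: alternating groups (helper282)

`dead_alt` : no configuration `CB` in an alternating group.

`C = C_G(N0)`; every 2-subgroup of `C ∩ ker ψ` lies in `⟨s⟩`; elements of odd order of `C` fix the points moved by `N0`;
`Δ` (the points moved by `N0`) is one `N0`-orbit; `z` restricted to half of `Δ` is an even permutation inverting `s`, trivial
on `N0/⟨z⟩`, commuting with `E`.
-/

set_option autoImplicit false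
set_option linter.unusedSectionVars false

open Subgroup

namespace Cfsg.Agent.H282.Co3

open Equiv Equiv.Perm Cfsg.Agent.H13.Co3 Cfsg.Agent.H282.LT
open scoped commutatorElement

/-! ### restrictions of permutations -/

section Res

variable {α : Type*}

open Classical in
/-- the restriction of `σ` to the invariant set `O` -/
noncomputable def res (σ : Perm α) (O : Set α) (h : ∀ i, i ∈ O ↔ σ i ∈ O) : Perm α where
  toFun i := if i ∈ O then σ i else i
  invFun i := if i ∈ O then σ⁻¹ i else i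
  left_inv i := by
    by_cases hi : i ∈ O
    · have h1 := (h i).1 hi
      simp only [if_pos hi, if_pos h1]
      exact σ.symm_apply_apply i
    · simp only [if_neg hi]
  right_inv i := by
    by_cases hi : i ∈ O
    · have h0 : σ (σ⁻¹ i) = i := σ.apply_symm_apply i
      have h1 : σ⁻¹ i ∈ O := by rw [h, h0]; exact hi
      simp only [if_pos hi, if_pos h1]
      exact h0
    · simp only [if_neg hi]

theorem res_mem {σ : Perm α} {O : Set α} {h : ∀ i, i ∈ O ↔ σ i ∈ O} {i : α} (hi : i ∈ O) : res σ O h i = σ i :=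
  if_pos hi

theorem res_not {σ : Perm α} {O : Set α} {h : ∀ i, i ∈ O ↔ σ i ∈ O} {i : α} (hi : i ∉ O) : res σ O h i = i :=
  if_neg hi

end Res

variable {G : Type*} [Group G] [Finite G] {P N0 : Subgroup G} {z s : G}
  {ψ : ↥(normalizer (P : Set G)) →* Perm (Fin 6)} {n : ℕ} {φ : G →* Perm (Fin n)}

/-! ### generalities -/

theorem mem_zs (C : CB P N0 z s ψ) {b : G} (hb : b ∈ zpowers s) (h2 : b * b = 1) (h1 : b ≠ 1) : b = z := by
  obtain ⟨k, rfl⟩ := hb
  have h3 : s ^ (2 : ℤ) = z := by rw [zpow_two, C.s_sq]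
  rcases Int.even_or_odd' k with ⟨m, rfl | rfl⟩
  · simp only [zpow_mul] at h1 h2 ⊢
    rw [h3] at h1 h2 ⊢
    rcases Int.even_or_odd' m with ⟨l, rfl | rfl⟩
    · exfalso; apply h1
      rw [zpow_mul, zpow_two, C.z_sq, one_zpow]
    · rw [zpow_add, zpow_mul, zpow_two, C.z_sq, one_zpow, one_mul, zpow_one]
  · exfalso
    apply C.z_ne
    simp only at h2
    rw [← zpow_add] at h2
    have h4 : (s : G) ^ ((2 : ℤ) * (2 * m + 1)) = 1 := by
      rw [← h2]; congr 1; ring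
    rw [zpow_mul, h3, zpow_add, zpow_mul, zpow_two, C.z_sq, one_zpow, one_mul, zpow_one] at h4
    exact h4

/-- `C_G(N0) ≤ H` -/
theorem mem_H (C : CB P N0 z s ψ) {c : G} (hc : c ∈ centralizer (N0 : Set G)) : c ∈ normalizer (P : Set G) :=
  C.key fun m hm => Or.inl ((mem_centralizer_iff.1 hc) m hm).symm

/-- every 2-subgroup of `C_G(N0) ∩ ker ψ` lies in `⟨s⟩` -/
theorem two_le (C : CB P N0 z s ψ) {B : Subgroup G} (hB : IsPGroup 2 B) (hBC : B ≤ centralizer (N0 : Set G))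
    (hψ : ∀ b (hb : b ∈ B), ψ ⟨b, mem_H C (hBC hb)⟩ = 1) : B ≤ zpowers s := by
  have h2 : IsPGroup 2 ↥(N0 ⊔ B : Subgroup G) :=
    IsPGroup.to_sup_of_normal_left' C.N_two hB (hBC.trans (centralizer_le_normalizer _))
  have hH : N0 ⊔ B ≤ normalizer (P : Set G) := sup_le C.NH fun b hb => mem_H C (hBC hb)
  have hker : (N0 ⊔ B).subgroupOf (normalizer (P : Set G)) ≤ ψ.ker := by
    have h3 : N0 ⊔ B ≤ ψ.ker.map (normalizer (P : Set G)).subtype := by
      refine sup_le ?_ ?_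
      · intro m hm
        exact ⟨⟨m, C.NH hm⟩, C.psi_N m hm, rfl⟩
      · intro b hb
        exact ⟨⟨b, mem_H C (hBC hb)⟩, hψ b hb, rfl⟩
    intro x hx
    obtain ⟨y, hy, hyx⟩ := h3 (mem_subgroupOf.1 hx)
    rwa [← Subtype.ext hyx]
  have h3 : Nat.card ↥(N0 ⊔ B : Subgroup G) ∣ Nat.card ψ.ker := by
    rw [← Nat.card_congr (subgroupOfEquivOfLe hH).toEquiv]
    exact Subgroup.card_dvd_of_le hker
  obtain ⟨m, hm, hcard⟩ := C.ker_card
  rw [hcard] at h3
  obtain ⟨k, hk⟩ := IsPGroup.iff_card.1 h2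
  have h4 : Nat.card ↥(N0 ⊔ B : Subgroup G) ∣ 64 := by
    rw [hk] at h3 ⊢
    exact Nat.Coprime.dvd_of_dvd_mul_right (Nat.Coprime.pow_left k ((Nat.coprime_two_left).2 hm)) h3
  have h5 : N0 = N0 ⊔ B := by
    apply Subgroup.eq_of_le_of_card_ge le_sup_left
    rw [C.card]
    exact Nat.le_of_dvd (by norm_num) h4
  intro b hb
  have hbN : b ∈ N0 := by rw [h5]; exact mem_sup_right hb
  exact C.cen b hbN fun m hm => ((mem_centralizer_iff.1 (hBC hb)) m hm).symm

/-- `ψ` is even on `C_G(N0)` -/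
theorem even_C (C : CB P N0 z s ψ) {c : G} (hc : c ∈ centralizer (N0 : Set G)) : sign (ψ ⟨c, mem_H C hc⟩) = 1 :=
  (C.inv_s ⟨c, mem_H C hc⟩ (centralizer_le_normalizer _ hc)).2 ((mem_centralizer_iff.1 hc) s C.sN).symm

/-- a normal 2-subgroup of `C_G(N0)` lies in `⟨s⟩` -/
theorem normal_le (C : CB P N0 z s ψ) {B : Subgroup G} (hB : IsPGroup 2 B) (hBC : B ≤ centralizer (N0 : Set G))
    (hn : ∀ c ∈ centralizer (N0 : Set G), ∀ b ∈ B, c * b * c⁻¹ ∈ B) : B ≤ zpowers s := by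
  apply two_le C hB hBC
  by_contra hcon
  push Not at hcon
  obtain ⟨b₀, hb₀, hne₀⟩ := hcon
  -- an element of `B` inducing an involution
  obtain ⟨b, hb, hne, hsq⟩ : ∃ b, ∃ hb : b ∈ B, ψ ⟨b, mem_H C (hBC hb)⟩ ≠ 1 ∧ ψ ⟨b, mem_H C (hBC hb)⟩ ^ 2 = 1 := by
    obtain ⟨k, hk⟩ := hB ⟨b₀, hb₀⟩
    have hk' : b₀ ^ 2 ^ k = 1 := congrArg Subtype.val hk
    have hpow : ∀ j : ℕ, ψ ⟨b₀ ^ 2 ^ j, mem_H C (hBC (pow_mem hb₀ _))⟩ = ψ ⟨b₀, mem_H C (hBC hb₀)⟩ ^ 2 ^ j := by
      intro j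
      rw [← map_pow]; rfl
    have hex : ∃ j : ℕ, ψ ⟨b₀, mem_H C (hBC hb₀)⟩ ^ 2 ^ j = 1 := by
      refine ⟨k, ?_⟩
      rw [← hpow]
      have : (⟨b₀ ^ 2 ^ k, mem_H C (hBC (pow_mem hb₀ _))⟩ : ↥(normalizer (P : Set G))) = 1 := Subtype.ext hk'
      rw [this, map_one]
    classical
    have hspec := Nat.find_spec hex
    have h0 : Nat.find hex ≠ 0 := by
      intro h0
      rw [h0, pow_zero, pow_one] at hspec
      exact hne₀ hspec
    obtain ⟨j, hj⟩ := Nat.exists_eq_succ_of_ne_zero h0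
    have hnot := Nat.find_min hex (m := j) (by omega)
    rw [hj] at hspec
    refine ⟨b₀ ^ 2 ^ j, pow_mem hb₀ _, ?_, ?_⟩
    · rw [hpow]; exact hnot
    · rw [hpow, ← pow_mul, ← pow_succ]; exact hspec
  set u := ψ ⟨b, mem_H C (hBC hb)⟩ with hu
  have huu : ∀ l, u (u l) = l := by
    intro l
    have h1 := congrArg (fun f : Perm (Fin 6) => f l) hsq
    rw [pow_two] at h1
    exact h1
  obtain ⟨i, hi⟩ : ∃ i, u i ≠ i := by
    by_contra hc
    push Not at hc
    exact hne (Equiv.ext hc)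
  have hsg : sign u = 1 := even_C C (hBC hb)
  obtain ⟨e, he⟩ : ∃ e, u e = e := by
    by_contra hc
    push Not at hc
    have h1 : ∀ k ∈ u.cycleType, k = 2 := by
      intro k hk
      have h2 := Equiv.Perm.two_le_of_mem_cycleType hk
      have h3 : k ∣ orderOf u := Equiv.Perm.dvd_of_mem_cycleType hk
      have h4 : orderOf u ∣ 2 := orderOf_dvd_of_pow_eq_one hsq
      exact le_antisymm (Nat.le_of_dvd (by norm_num) (h3.trans h4)) h2
    have h5 := Multiset.eq_replicate_of_mem h1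
    have h6 := Equiv.Perm.sum_cycleType u
    have h7 : u.support = Finset.univ := by
      ext l; rw [mem_support]; simp [hc l]
    rw [h5, Multiset.sum_replicate, smul_eq_mul, h7, Finset.card_univ, Fintype.card_fin] at h6
    have h8 : Multiset.card u.cycleType = 3 := by omega
    rw [sign_of_cycleType, h5, h8] at hsg
    revert hsg
    decide
  have hie : i ≠ e := by rintro rfl; exact hi he
  have hje : u i ≠ e := by
    intro h5
    apply hie
    rw [← huu i, h5, he]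
  obtain ⟨h₀, hh₀, hψh⟩ := C.even (cyc i (u i) e) (sign_cyc hi.symm hje)
  have hhC : (h₀ : G) ∈ centralizer (N0 : Set G) := by
    rw [mem_centralizer_iff]
    exact fun m hm => (hh₀ m hm).symm
  have hmem : ⁅b, (h₀ : G)⁆ ∈ B := by
    have h2 := hn _ hhC b⁻¹ (inv_mem hb)
    have e : ⁅b, (h₀ : G)⁆ = b * ((h₀ : G) * b⁻¹ * (h₀ : G)⁻¹) := by rw [commutatorElement_def]; group
    rw [e]; exact mul_mem hb h2
  obtain ⟨k, hk⟩ := hB ⟨_, hmem⟩
  have hk' : ⁅b, (h₀ : G)⁆ ^ 2 ^ k = 1 := congrArg Subtype.val hk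
  have hk2 : ⁅u, cyc i (u i) e⁆ ^ 2 ^ k = 1 := by
    rw [← hψh, hu, ← map_commutatorElement, ← map_pow]
    have : (⁅(⟨b, mem_H C (hBC hb)⟩ : ↥(normalizer (P : Set G))), h₀⁆) ^ 2 ^ k = 1 := Subtype.ext hk'
    rw [this, map_one]
  exact comm_fix (X := Fin 6) (cyc_1 hi.symm hie hje) (cyc_2 hi.symm hie hje) (cyc_3 hi.symm hie hje)
    rfl (huu i) he hie hk2

/-! ### orbits of `N0` -/

/-- `G` is an alternating group, through `φ` -/
structure AltG (φ : G →* Perm (Fin n)) : Prop where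
  inj : Function.Injective φ
  ev : ∀ g, sign (φ g) = 1
  lift : ∀ σ : Perm (Fin n), sign σ = 1 → ∃ g, φ g = σ

/-- same `N0`-orbit -/
def Rl (φ : G →* Perm (Fin n)) (N0 : Subgroup G) (i j : Fin n) : Prop := ∃ m ∈ N0, φ m i = j

/-- moved by `N0` -/
def Mv (φ : G →* Perm (Fin n)) (N0 : Subgroup G) (i : Fin n) : Prop := ∃ m ∈ N0, φ m i ≠ i

theorem Rl.refl (φ : G →* Perm (Fin n)) (N0 : Subgroup G) (i : Fin n) : Rl φ N0 i i := ⟨1, one_mem _, by simp⟩

theorem Rl.symm {i j : Fin n} (h : Rl φ N0 i j) : Rl φ N0 j i := by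
  obtain ⟨m, hm, rfl⟩ := h
  refine ⟨m⁻¹, inv_mem hm, ?_⟩
  rw [← Perm.mul_apply, ← map_mul, inv_mul_cancel, map_one]; rfl

theorem Rl.trans {i j k : Fin n} (h : Rl φ N0 i j) (h' : Rl φ N0 j k) : Rl φ N0 i k := by
  obtain ⟨m, hm, rfl⟩ := h
  obtain ⟨m', hm', rfl⟩ := h'
  exact ⟨m' * m, mul_mem hm' hm, by rw [map_mul]; rfl⟩

theorem Mv.of_rl {i j : Fin n} (hi : Mv φ N0 i) (h : Rl φ N0 i j) : Mv φ N0 j := by
  by_contra hc
  unfold Mv at hc
  push Not at hc
  obtain ⟨m, hm, hmi⟩ := hi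
  obtain ⟨k, hk, rfl⟩ := h
  have h1 := hc k⁻¹ (inv_mem hk)
  have h2 : φ k⁻¹ (φ k i) = i := by rw [← Perm.mul_apply, ← map_mul, inv_mul_cancel, map_one]; rfl
  rw [h2] at h1
  apply hmi
  have h3 := hc m hm
  rwa [← h1] at h3

theorem cap {c m : G} (hc : c ∈ centralizer (N0 : Set G)) (hm : m ∈ N0) (i : Fin n) : φ c (φ m i) = φ m (φ c i) := by
  rw [← Perm.mul_apply, ← Perm.mul_apply, ← map_mul, ← map_mul, (mem_centralizer_iff.1 hc) m hm]

theorem conj_cent {c d : G} (hc : c ∈ centralizer (N0 : Set G)) (hd : d ∈ centralizer (N0 : Set G)) :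
    d * c * d⁻¹ ∈ centralizer (N0 : Set G) := mul_mem (mul_mem hd hc) (inv_mem hd)

theorem pow4 (C : CB P N0 z s ψ) {m : G} (hm : m ∈ N0) : (m * m) * (m * m) = 1 := by
  rcases C.sq m hm with h | h
  · rw [h, one_mul]
  · rw [h, C.z_sq]

/-- the elements of `C_G(N0)` preserving all `N0`-orbits -/
def BB (φ : G →* Perm (Fin n)) (N0 : Subgroup G) : Subgroup G where
  carrier := {c | c ∈ centralizer (N0 : Set G) ∧ ∀ i, Rl φ N0 i (φ c i)}
  mul_mem' := by
    rintro a b ⟨h1, h2⟩ ⟨h3, h4⟩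
    refine ⟨mul_mem h1 h3, fun i => ?_⟩
    rw [map_mul]
    exact (h4 i).trans (h2 _)
  one_mem' := ⟨one_mem _, fun i => by rw [map_one]; exact Rl.refl φ N0 i⟩
  inv_mem' := by
    rintro a ⟨h1, h2⟩
    refine ⟨inv_mem h1, fun i => ?_⟩
    have h3 := h2 (φ a⁻¹ i)
    have h4 : φ a (φ a⁻¹ i) = i := by rw [← Perm.mul_apply, ← map_mul, mul_inv_cancel, map_one]; rfl
    rw [h4] at h3
    exact h3.symm

theorem BB_le (A : AltG φ) (C : CB P N0 z s ψ) : BB φ N0 ≤ zpowers s := by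
  refine normal_le C (B := BB φ N0) ?_ (fun b hb => ?_) ?_
  rotate_left
  · exact (show b ∈ centralizer (N0 : Set G) ∧ _ from hb).1
  · rintro c hc b ⟨hb1, hb2⟩
    refine ⟨conj_cent hb1 hc, fun i => ?_⟩
    obtain ⟨m, hm, hmi⟩ := hb2 (φ c⁻¹ i)
    refine ⟨m, hm, ?_⟩
    have h4 : φ c (φ c⁻¹ i) = i := by rw [← Perm.mul_apply, ← map_mul, mul_inv_cancel, map_one]; rfl
    rw [map_mul, map_mul, Perm.mul_apply, Perm.mul_apply, ← hmi, cap hc hm, h4]
  · rintro ⟨b, hb1, hb2⟩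
    refine ⟨2, Subtype.ext ?_⟩
    apply A.inj
    change φ (b ^ 2 ^ 2) = φ 1
    rw [map_one]
    have e : b ^ 2 ^ 2 = (b * b) * (b * b) := by
      rw [← pow_two, ← pow_two, ← pow_mul]; rfl
    rw [e]
    ext i
    congr 1
    obtain ⟨m, hm, hmi⟩ := hb2 i
    have h1 : ∀ k ∈ N0, φ b (φ k i) = φ k (φ m i) := fun k hk => by rw [cap hb1 hk, ← hmi]
    have h2 : φ (b * b) i = φ (m * m) i := by
      rw [map_mul, Perm.mul_apply, ← hmi, h1 m hm, map_mul]; rfl
    have h3 : φ (b * b) (φ (m * m) i) = φ ((m * m) * (m * m)) i := by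
      rw [cap (mul_mem hb1 hb1) (mul_mem hm hm), h2, map_mul (f := φ) (m * m) (m * m)]; rfl
    rw [map_mul, Perm.mul_apply, h2, h3, pow4 C hm, map_one]

/-- an involution commuting with `N0`, supported on the orbit of `y` -/
theorem exists_t (C : CB P N0 z s ψ) {y : Fin n} (hy : Mv φ N0 y) : ∃ t : Perm (Fin n), t * t = 1 ∧ t y ≠ y ∧
    (∀ m ∈ N0, t * φ m = φ m * t) ∧ (∀ i, ¬ Rl φ N0 y i → t i = i) ∧ ∀ i, Rl φ N0 i (t i) := by
  have hzN : z ∈ N0 := C.PN C.zP
  have hzc : ∀ m ∈ N0, z * m = m * z := fun m hm => (C.z_cen m (C.NH hm)).symm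
  -- the element `m₀` of `N0`
  obtain ⟨m₀, hm₀, hm1, hm2, hm3⟩ : ∃ m₀ ∈ N0, φ m₀ y ≠ y ∧ (∀ i, Rl φ N0 y i → φ (m₀ * m₀) i = i) ∧
      (∀ i, Rl φ N0 y i → ∀ m ∈ N0, φ (m₀ * m) i = φ (m * m₀) i) := by
    by_cases hz : φ z y = y
    · obtain ⟨m₀, hm₀, hm1⟩ := hy
      have hzi : ∀ i, Rl φ N0 y i → φ z i = i := by
        rintro i ⟨m, hm, rfl⟩
        rw [← Perm.mul_apply, ← map_mul, hzc m hm, map_mul, Perm.mul_apply, hz]
      refine ⟨m₀, hm₀, hm1, fun i hi => ?_, fun i hi m hm => ?_⟩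
      · rcases C.sq m₀ hm₀ with h | h
        · rw [h, map_one]; rfl
        · rw [h, hzi i hi]
      · rcases C.comm m₀ hm₀ m hm with h | h
        · rw [h]
        · rw [h, map_mul, Perm.mul_apply]
          apply hzi
          exact hi.trans ⟨m * m₀, mul_mem hm hm₀, rfl⟩
    · refine ⟨z, hzN, hz, fun i _ => ?_, fun i _ m hm => by rw [hzc m hm]⟩
      rw [C.z_sq, map_one]; rfl
  have hO : ∀ i, i ∈ {i | Rl φ N0 y i} ↔ φ m₀ i ∈ {i | Rl φ N0 y i} := fun i =>
    ⟨fun h => h.trans ⟨m₀, hm₀, rfl⟩, fun h => h.trans (Rl.symm ⟨m₀, hm₀, rfl⟩)⟩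
  refine ⟨res (φ m₀) {i | Rl φ N0 y i} hO, ?_, ?_, ?_, ?_, ?_⟩
  · ext i
    congr 1
    rw [Perm.mul_apply, Perm.one_apply]
    by_cases hi : Rl φ N0 y i
    · rw [res_mem (show i ∈ {i | Rl φ N0 y i} from hi), res_mem ((hO i).1 hi)]
      have := hm2 i hi
      rwa [map_mul] at this
    · rw [res_not (show i ∉ {i | Rl φ N0 y i} from hi), res_not (show i ∉ {i | Rl φ N0 y i} from hi)]
  · rw [res_mem (show y ∈ {i | Rl φ N0 y i} from Rl.refl _ _ _)]
    exact hm1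
  · intro m hm
    ext i
    congr 1
    rw [Perm.mul_apply, Perm.mul_apply]
    by_cases hi : Rl φ N0 y i
    · have hmi : Rl φ N0 y (φ m i) := hi.trans ⟨m, hm, rfl⟩
      rw [res_mem (show i ∈ {i | Rl φ N0 y i} from hi), res_mem (show φ m i ∈ {i | Rl φ N0 y i} from hmi)]
      have := hm3 i hi m hm
      rwa [map_mul, map_mul] at this
    · have hmi : ¬ Rl φ N0 y (φ m i) := fun h => hi (h.trans (Rl.symm ⟨m, hm, rfl⟩))
      rw [res_not (show i ∉ {i | Rl φ N0 y i} from hi), res_not (show φ m i ∉ {i | Rl φ N0 y i} from hmi)]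
  · intro i hi
    exact res_not (show i ∉ {i | Rl φ N0 y i} from hi)
  · intro i
    by_cases hi : Rl φ N0 y i
    · rw [res_mem (show i ∈ {i | Rl φ N0 y i} from hi)]
      exact ⟨m₀, hm₀, rfl⟩
    · rw [res_not (show i ∉ {i | Rl φ N0 y i} from hi)]
      exact Rl.refl _ _ _

/-- an even involution commuting with `N0` and preserving the orbits is `z` -/
theorem eq_z (A : AltG φ) (C : CB P N0 z s ψ) {u : Perm (Fin n)} (hs : sign u = 1) (hu : u * u = 1) {y : Fin n}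
    (hy : u y ≠ y) (hc : ∀ m ∈ N0, u * φ m = φ m * u) (hr : ∀ i, Rl φ N0 i (u i)) : φ z = u := by
  obtain ⟨b, hb⟩ := A.lift u hs
  have hbB : b ∈ BB φ N0 := by
    refine ⟨?_, fun i => by rw [hb]; exact hr i⟩
    rw [mem_centralizer_iff]
    intro m hm
    apply A.inj
    rw [map_mul, map_mul, hb, hc m hm]
  have h1 : b * b = 1 := by apply A.inj; rw [map_mul, hb, hu, map_one]
  have h2 : b ≠ 1 := by
    rintro rfl
    rw [map_one] at hb
    rw [← hb] at hy
    exact hy rfl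
  rw [← hb, mem_zs C (BB_le A C hbB) h1 h2]

theorem pow_rl {c : G} (hc : c ∈ centralizer (N0 : Set G)) {m : G} (hm : m ∈ N0) {y : Fin n} (h : φ c y = φ m y)
    (k : ℕ) : φ (c ^ k) y = φ (m ^ k) y := by
  induction k with
  | zero => simp
  | succ k ih =>
    rw [pow_succ', map_mul, Perm.mul_apply, ih, cap hc (pow_mem hm k), h, pow_succ, map_mul]; rfl

theorem odd_pow {x : G} (hx : Odd (orderOf x)) : ∃ k : ℕ, (x ^ 2) ^ k = x := by
  obtain ⟨k, hk⟩ := hx
  refine ⟨k + 1, ?_⟩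
  rw [← pow_mul, show 2 * (k + 1) = orderOf x + 1 by omega, pow_succ, pow_orderOf_eq_one, one_mul]

/-- elements of odd order of `C_G(N0)` fix the points moved by `N0` -/
theorem odd_fix (A : AltG φ) (C : CB P N0 z s ψ) {x : G} (hx : x ∈ centralizer (N0 : Set G))
    (hodd : Odd (orderOf x)) {y : Fin n} (hy : Mv φ N0 y) : φ x y = y := by
  have hR : Rl φ N0 y (φ x y) := by
    by_contra h1
    have h2 : ¬ Rl φ N0 y (φ (x * x) y) := by
      rintro ⟨m, hm, hmy⟩
      apply h1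
      obtain ⟨k, hk⟩ := odd_pow hodd
      have h3 := pow_rl (mul_mem hx hx) hm hmy.symm k
      rw [← pow_two, hk] at h3
      exact ⟨m ^ k, pow_mem hm k, h3.symm⟩
    obtain ⟨t, ht1, ht2, ht3, ht4, ht5⟩ := exists_t C hy
    have key : ∀ c ∈ centralizer (N0 : Set G), ¬ Rl φ N0 y (φ c y) → φ z = t * (φ c * t * (φ c)⁻¹) := by
      intro c hc hcy
      have h0 : ∀ i, φ c ((φ c)⁻¹ i) = i := fun i => by rw [← Perm.mul_apply, mul_inv_cancel]; rfl
      have h0' : ∀ i, (φ c)⁻¹ i = φ c⁻¹ i := fun i => by rw [map_inv]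
      have hdis : ∀ i, t i = i ∨ (φ c * t * (φ c)⁻¹) i = i := by
        intro i
        by_contra hcon
        rw [not_or] at hcon
        have r1 : Rl φ N0 y i := by
          by_contra h; exact hcon.1 (ht4 i h)
        have r2 : Rl φ N0 y ((φ c)⁻¹ i) := by
          by_contra h
          apply hcon.2
          rw [Perm.mul_apply, Perm.mul_apply, ht4 _ h, h0]
        apply hcy
        obtain ⟨m, hm, hmi⟩ := r2
        have h5 : φ m (φ c y) = i := by rw [← cap hc hm, hmi, h0]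
        exact r1.trans (Rl.symm ⟨m, hm, h5⟩)
      have hcomm : t * (φ c * t * (φ c)⁻¹) = (φ c * t * (φ c)⁻¹) * t :=
        (show Equiv.Perm.Disjoint t (φ c * t * (φ c)⁻¹) from hdis).commute.eq
      refine eq_z A C (y := y) ?_ ?_ ?_ ?_ ?_
      · simp only [map_mul, map_inv]
        rcases Int.units_eq_one_or (sign t) with h5 | h5 <;> simp [h5]
      · calc t * (φ c * t * (φ c)⁻¹) * (t * (φ c * t * (φ c)⁻¹))
            = t * ((φ c * t * (φ c)⁻¹) * t) * (φ c * t * (φ c)⁻¹) := by group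
          _ = t * (t * (φ c * t * (φ c)⁻¹)) * (φ c * t * (φ c)⁻¹) := by rw [← hcomm]
          _ = (t * t) * (φ c * (t * t) * (φ c)⁻¹) := by group
          _ = 1 := by rw [ht1]; group
      · have h5 : (φ c * t * (φ c)⁻¹) y = y := by
          rcases hdis y with h | h
          · exact absurd h ht2
          · exact h
        rw [Perm.mul_apply, h5]
        exact ht2
      · intro m hm
        have h5 : φ c * φ m = φ m * φ c := by
          rw [← map_mul, ← map_mul, (mem_centralizer_iff.1 hc) m hm]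
        have h6 : (φ c)⁻¹ * φ m = φ m * (φ c)⁻¹ := by
          rw [inv_mul_eq_iff_eq_mul, ← mul_assoc, h5, mul_inv_cancel_right]
        calc t * (φ c * t * (φ c)⁻¹) * φ m = t * φ c * t * ((φ c)⁻¹ * φ m) := by group
          _ = t * φ c * (t * φ m) * (φ c)⁻¹ := by rw [h6]; group
          _ = t * (φ c * φ m) * t * (φ c)⁻¹ := by rw [ht3 m hm]; group
          _ = (t * φ m) * φ c * t * (φ c)⁻¹ := by rw [h5]; group
          _ = φ m * (t * (φ c * t * (φ c)⁻¹)) := by rw [ht3 m hm]; group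
      · intro i
        have h5 : Rl φ N0 i ((φ c * t * (φ c)⁻¹) i) := by
          obtain ⟨m, hm, hmi⟩ := ht5 ((φ c)⁻¹ i)
          refine ⟨m, hm, ?_⟩
          rw [Perm.mul_apply, Perm.mul_apply, ← hmi, cap hc hm, h0]
        rw [Perm.mul_apply]
        exact h5.trans (ht5 _)
    have k1 := key x hx h1
    have k2 := key (x * x) (mul_mem hx hx) h2
    rw [k1] at k2
    have k3 := mul_left_cancel k2
    have k4 := congrArg (fun f : Perm (Fin n) => f (φ x y)) k3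
    have h0 : (φ x)⁻¹ (φ x y) = y := by rw [← Perm.mul_apply, inv_mul_cancel]; rfl
    simp only [Perm.mul_apply] at k4
    rw [h0] at k4
    have h5 : (φ (x * x))⁻¹ (φ x y) = φ x⁻¹ y := by
      rw [← map_inv, ← Perm.mul_apply, ← map_mul]
      congr 2; group
    have hneg : ¬ Rl φ N0 y (φ x⁻¹ y) := by
      intro h6
      apply h1
      obtain ⟨m, hm, hmy⟩ := h6
      have h7 : φ m (φ x y) = y := by
        rw [← cap hx hm, hmy, ← Perm.mul_apply, ← map_mul, mul_inv_cancel, map_one]; rfl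
      exact Rl.symm ⟨m, hm, h7⟩
    rw [h5, ht4 (φ x⁻¹ y) hneg] at k4
    have h6 : φ (x * x) (φ x⁻¹ y) = φ x y := by
      rw [← Perm.mul_apply, ← map_mul]
      congr 2; group
    rw [h6] at k4
    exact ht2 ((φ x).injective k4)
  obtain ⟨m, hm, hmy⟩ := hR
  obtain ⟨k, hk⟩ := odd_pow hodd
  have h1 : φ (x ^ 4) y = y := by
    rw [pow_rl hx hm hmy.symm 4]
    have : m ^ 4 = 1 := by rw [← pow4 C hm, ← pow_two, ← pow_two, ← pow_mul]
    rw [this, map_one]; rfl
  -- `x = (x ^ 4) ^ j`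
  have h2 : ∀ j : ℕ, φ ((x ^ 4) ^ j) y = y := by
    intro j
    induction j with
    | zero => simp
    | succ j ih => rw [pow_succ, map_mul, Perm.mul_apply, h1, ih]
  have h3 : ((x ^ 4) ^ (k * k)) = x := by
    have e : (x ^ 4) ^ (k * k) = (((x ^ 2) ^ k) ^ 2) ^ k := by
      rw [← pow_mul, ← pow_mul, ← pow_mul, ← pow_mul]; congr 1; ring
    rw [e, hk, hk]
  rw [← h3]
  exact h2 _

end Cfsg.Agent.H282.Co3
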