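import Cfsg.Agent.H282.Co3.Alt

/-!
# S1920, case B: alternating groups, end (helper282)
-/

set_option autoImplicit false
set_option linter.unusedSectionVars false

open Subgroup

namespace Cfsg.Agent.H282.Co3

open Equiv Equiv.Perm Cfsg.Agent.H13.Co3 Cfsg.Agent.H282.LT

variable {G : Type*} [Group G] [Finite G] {P N0 : Subgroup G} {z s : G}
  {ψ : ↥(normalizer (P : Set G)) →* Perm (Fin 6)} {n : ℕ} {φ : G →* Perm (Fin n)}

/-- the elements fixing the points moved by `N0` -/
def AF (φ : G →* Perm (Fin n)) (N0 : Subgroup G) : Subgroup G where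
  carrier := {g | ∀ i, Mv φ N0 i → φ g i = i}
  mul_mem' := by
    intro a b ha hb i hi
    rw [map_mul, Perm.mul_apply, hb i hi, ha i hi]
  one_mem' := fun i _ => by rw [map_one]; rfl
  inv_mem' := by
    intro a ha i hi
    have h := ha i hi
    have h2 : φ a⁻¹ (φ a i) = i := by rw [← Perm.mul_apply, ← map_mul, inv_mul_cancel, map_one]; rfl
    rwa [h] at h2

theorem AF_cent (A : AltG φ) {g : G} (hg : g ∈ AF φ N0) : g ∈ centralizer (N0 : Set G) := by
  rw [mem_centralizer_iff]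
  intro m hm
  apply A.inj
  rw [map_mul, map_mul]
  refine (show Equiv.Perm.Disjoint (φ m) (φ g) from fun i => ?_).commute.eq
  by_cases hi : φ m i = i
  · exact Or.inl hi
  · exact Or.inr (hg i ⟨m, hm, hi⟩)

theorem AF_even (A : AltG φ) (C : CB P N0 z s ψ) {π : Perm (Fin 6)} (hπ : sign π = 1) :
    ∃ g, ∃ hg : g ∈ AF φ N0, ψ ⟨g, mem_H C (AF_cent A hg)⟩ = π := by
  have h1 : alternatingGroup (Fin 6) ≤ ((AF φ N0).subgroupOf (normalizer (P : Set G))).map ψ := by
    rw [← closure_three_cycles_eq_alternating, closure_le]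
    intro c hc
    obtain ⟨h, hh, hψ⟩ := C.even c hc.sign
    have hhC : (h : G) ∈ centralizer (N0 : Set G) := by
      rw [mem_centralizer_iff]
      exact fun m hm => (hh m hm).symm
    obtain ⟨k, m, hm, hkm⟩ := Nat.exists_eq_two_pow_mul_odd (n := orderOf (h : G)) (orderOf_pos _).ne'
    have hx : Odd (orderOf ((h : G) ^ 4 ^ k)) := by
      have h2 : orderOf ((h : G) ^ 4 ^ k) ∣ m := by
        apply orderOf_dvd_of_pow_eq_one
        rw [← pow_mul]
        have h3 : 4 ^ k * m = orderOf (h : G) * 2 ^ k := by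
          rw [hkm, show (4 : ℕ) = 2 * 2 by rfl, mul_pow]; ring
        rw [h3, pow_mul, pow_orderOf_eq_one, one_pow]
      exact Odd.of_dvd_nat hm h2
    refine ⟨h ^ 4 ^ k, ?_, ?_⟩
    · rw [SetLike.mem_coe, mem_subgroupOf]
      intro i hi
      exact odd_fix A C (pow_mem hhC _) hx hi
    · rw [map_pow, hψ]
      have h3 : c ^ 3 = 1 := by rw [← hc.orderOf]; exact pow_orderOf_eq_one c
      have h4 : 4 ^ k = 3 * (4 ^ k / 3) + 1 := by
        have : 4 ^ k % 3 = 1 := by rw [Nat.pow_mod]; norm_num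
        omega
      rw [h4, pow_succ, pow_mul, h3, one_pow, one_mul]
  obtain ⟨g, hg, hgπ⟩ := h1 (mem_alternatingGroup.2 hπ)
  exact ⟨g, mem_subgroupOf.1 hg, hgπ⟩

theorem not_mv_apply {m : G} (hm : m ∈ N0) {i : Fin n} (h : ¬ Mv φ N0 i) : φ m i = i := by
  by_contra hc
  exact h ⟨m, hm, hc⟩

theorem exists_ab (A : AltG φ) (C : CB P N0 z s ψ) : ∃ a b, ¬ Mv φ N0 a ∧ ¬ Mv φ N0 b ∧ a ≠ b := by
  obtain ⟨g, hg, hgπ⟩ := AF_even A C (π := cyc 0 1 2) (sign_cyc (by decide) (by decide))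
  have hg1 : ∃ a, φ g a ≠ a := by
    by_contra hcon
    push Not at hcon
    have h1 : g = 1 := A.inj (by rw [map_one]; exact Equiv.ext hcon)
    have h2 : (⟨g, mem_H C (AF_cent A hg)⟩ : ↥(normalizer (P : Set G))) = 1 := Subtype.ext h1
    rw [h2, map_one] at hgπ
    have h3 : (1 : Perm (Fin 6)) 0 = cyc 0 1 2 0 := congrArg (fun f : Perm (Fin 6) => f 0) hgπ
    rw [cyc_1 (by decide) (by decide) (by decide)] at h3
    exact absurd h3 (by decide)
  obtain ⟨a, ha⟩ := hg1
  have haF : ¬ Mv φ N0 a := fun h => ha (hg a h)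
  refine ⟨φ g a, a, ?_, haF, ha⟩
  intro h
  apply ha
  exact (φ g).injective (hg _ h)

theorem even_of_comm (A : AltG φ) (C : CB P N0 z s ψ) {d : Perm (Fin n)} (hd : ∀ i, ¬ Mv φ N0 i → d i = i)
    (hc : ∀ m ∈ N0, d * φ m = φ m * d) : sign d = 1 := by
  by_contra hodd
  have hodd' : sign d = -1 := (Int.units_eq_one_or _).resolve_left hodd
  obtain ⟨a, b, ha, hb, hab⟩ := exists_ab A C
  have hτ : ∀ i, Mv φ N0 i → swap a b i = i := fun i hi =>
    swap_apply_of_ne_of_ne (fun h => ha (h ▸ hi)) (fun h => hb (h ▸ hi))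
  have hτc : ∀ m ∈ N0, swap a b * φ m = φ m * swap a b := by
    intro m hm
    refine (show Equiv.Perm.Disjoint (swap a b) (φ m) from fun i => ?_).commute.eq
    by_cases hi : Mv φ N0 i
    · exact Or.inl (hτ i hi)
    · exact Or.inr (not_mv_apply hm hi)
  obtain ⟨γ, hγ⟩ := A.lift (d * swap a b) (by rw [map_mul, hodd', sign_swap hab]; rfl)
  have hγC : γ ∈ centralizer (N0 : Set G) := by
    rw [mem_centralizer_iff]
    intro m hm
    apply A.inj
    rw [map_mul, map_mul, hγ, mul_assoc, hτc m hm, ← mul_assoc, ← mul_assoc, hc m hm]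
  obtain ⟨e, he, heψ⟩ := AF_even A C (even_C C hγC)
  have heC := AF_cent A he
  -- the difference
  set y := γ * e⁻¹ with hy
  have hyC : y ∈ centralizer (N0 : Set G) := mul_mem hγC (inv_mem heC)
  have hyψ : ψ ⟨y, mem_H C hyC⟩ = 1 := by
    have h1 : (⟨y, mem_H C hyC⟩ : ↥(normalizer (P : Set G))) = ⟨γ, mem_H C hγC⟩ * ⟨e, mem_H C heC⟩⁻¹ := rfl
    rw [h1, map_mul, map_inv, heψ, mul_inv_cancel]
  set ρ : Perm (Fin n) := swap a b * (φ e)⁻¹ with hρ
  have hφy : φ y = d * ρ := by rw [hy, map_mul, map_inv, hγ, hρ, mul_assoc]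
  have hρΔ : ∀ i, Mv φ N0 i → ρ i = i := by
    intro i hi
    rw [hρ, Perm.mul_apply]
    have h1 : (φ e)⁻¹ i = i := by
      have h2 := inv_mem he i hi
      rwa [map_inv] at h2
    rw [h1, hτ i hi]
  have hρd : Commute d ρ := by
    refine (show Equiv.Perm.Disjoint d ρ from fun i => ?_).commute
    by_cases hi : Mv φ N0 i
    · exact Or.inr (hρΔ i hi)
    · exact Or.inl (hd i hi)
  obtain ⟨k, m, hm, hkm⟩ := Nat.exists_eq_two_pow_mul_odd (n := orderOf y) (orderOf_pos _).ne'
  have hB : zpowers (y ^ m) ≤ zpowers s := by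
    refine two_le C ?_ ?_ ?_
    · have h1 : orderOf (y ^ m) ∣ 2 ^ k := by
        apply orderOf_dvd_of_pow_eq_one
        rw [← pow_mul, mul_comm m, ← hkm, pow_orderOf_eq_one]
      obtain ⟨l, -, hl⟩ := (Nat.dvd_prime_pow Nat.prime_two).1 h1
      exact IsPGroup.of_card (n := l) (by rw [Nat.card_zpowers, hl])
    · rw [zpowers_le]; exact pow_mem hyC m
    · rintro _ ⟨j, rfl⟩
      have h1 : ∀ hh, ψ ⟨(y ^ m) ^ j, hh⟩ = (ψ ⟨y, mem_H C hyC⟩ ^ m) ^ j := by
        intro hh
        rw [← map_pow, ← map_zpow]; rfl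
      have h2 := h1 (mem_H C (zpow_mem (pow_mem hyC m) j))
      rw [hyψ, one_pow, one_zpow] at h2
      exact h2
  have hyN : y ^ m ∈ N0 := (zpowers_le.2 C.sN) (hB (mem_zpowers _))
  have hρm : ρ ^ m = 1 := by
    ext i
    congr 1
    rw [Perm.one_apply]
    by_cases hi : Mv φ N0 i
    · clear hkm hB hyN hm
      induction m with
      | zero => rfl
      | succ m ih => rw [pow_succ, Perm.mul_apply, hρΔ i hi, ih]
    · have h1 := not_mv_apply hyN hi
      rw [map_pow, hφy, hρd.mul_pow, Perm.mul_apply] at h1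
      have h2 : (d ^ m) i = i := by
        clear hkm hB hyN hm h1
        induction m with
        | zero => rfl
        | succ m ih => rw [pow_succ, Perm.mul_apply, hd i hi, ih]
      exact (d ^ m).injective (h1.trans h2.symm)
  have h1 := congrArg sign hρm
  rw [map_pow, hρ, map_mul, map_inv, A.ev, sign_swap hab, inv_one, mul_one, hm.neg_one_pow, map_one] at h1
  exact absurd h1 (by decide)

/-- all moved points are in one orbit -/
theorem one_orbit (A : AltG φ) (C : CB P N0 z s ψ) {i j : Fin n} (hi : Mv φ N0 i) (hj : Mv φ N0 j) :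
    Rl φ N0 i j := by
  by_contra hcon
  have key : ∀ y, Mv φ N0 y → ∃ t : Perm (Fin n), φ z = t ∧ t y ≠ y ∧ ∀ l, ¬ Rl φ N0 y l → t l = l := by
    intro y hy
    obtain ⟨t, ht1, ht2, ht3, ht4, ht5⟩ := exists_t C hy
    refine ⟨t, eq_z A C (even_of_comm A C ?_ ht3) ht1 ht2 ht3 ht5, ht2, ht4⟩
    intro l hl
    apply ht4
    intro h
    exact hl (hy.of_rl h)
  obtain ⟨t, h1, h2, h3⟩ := key i hi
  obtain ⟨t', h1', h2', h3'⟩ := key j hj
  have h4 := h3' i (fun h => hcon h.symm)
  rw [← h1', h1] at h4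
  exact h2 h4

/-- maximal subgroups avoiding an element -/
theorem exists_K (C : CB P N0 z s ψ) {L D : Subgroup G} (hL : L ≤ N0) (hDL : D ≤ L) (hzL : z ∈ L) {u : G}
    (huL : u ∈ L) (hD : ∀ d ∈ D, u ≠ d ∧ u ≠ z * d) : ∃ K : Subgroup G, K ≤ L ∧ D ≤ K ∧ z ∈ K ∧ u ∉ K ∧
      ∀ m ∈ L, m ∈ K ∨ u * m ∈ K := by
  have hzc : ∀ m ∈ N0, z * m = m * z := fun m hm => (C.z_cen m (C.NH hm)).symm
  have hzz := C.z_sq
  -- the extension of a subgroup containing `z`
  have ext : ∀ K : Subgroup G, K ≤ N0 → z ∈ K → ∀ v ∈ N0, ∃ K' : Subgroup G, K ≤ K' ∧ v ∈ K' ∧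
      ∀ g ∈ K', g ∈ K ∨ v * g ∈ K := by
    intro K hK hzK v hv
    have hcj : ∀ g ∈ K, v * g * v⁻¹ ∈ K := by
      intro g hg
      rcases C.comm v hv g (hK hg) with h | h
      · rw [h, mul_inv_cancel_right]; exact hg
      · rw [h, show z * (g * v) * v⁻¹ = z * g by group]; exact mul_mem hzK hg
    have hvv : v * v ∈ K := by
      rcases C.sq v hv with h | h
      · rw [h]; exact one_mem _
      · rw [h]; exact hzK
    have hvm : ∀ g, v * g ∈ K → g * v ∈ K := by
      intro g hg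
      have h1 := hcj _ hg
      have h2 : g * v = (v * v)⁻¹ * (v * (v * g) * v⁻¹) * (v * v) := by group
      rw [h2]
      exact mul_mem (mul_mem (inv_mem hvv) h1) hvv
    refine ⟨{ carrier := {g | g ∈ K ∨ v * g ∈ K}, mul_mem' := ?_, one_mem' := Or.inl (one_mem _), inv_mem' := ?_ },
      fun g hg => Or.inl hg, Or.inr hvv, fun g hg => hg⟩
    · rintro g h (hg | hg) (hh | hh)
      · exact Or.inl (mul_mem hg hh)
      · right
        have h1 : v * (g * h) = (v * g * v⁻¹) * (v * h) := by group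
        rw [h1]; exact mul_mem (hcj g hg) hh
      · right
        rw [← mul_assoc]; exact mul_mem hg hh
      · left
        have h1 : g * h = (g * v) * (v * v)⁻¹ * (v * h) := by group
        rw [h1]; exact mul_mem (mul_mem (hvm g hg) (inv_mem hvv)) hh
    · rintro g (hg | hg)
      · exact Or.inl (inv_mem hg)
      · right
        have h1 : v * g⁻¹ = (v * v) * (g * v)⁻¹ := by group
        change v * g⁻¹ ∈ K
        rw [h1]
        exact mul_mem hvv (inv_mem (hvm g hg))
  -- the first subgroup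
  have hDz : ∀ g, z * g ∈ D → g ∈ L := by
    intro g hg
    have h1 : g = z * (z * g) := by rw [← mul_assoc, hzz, one_mul]
    rw [h1]; exact mul_mem hzL (hDL hg)
  let D1 : Subgroup G := {
    carrier := {g | g ∈ D ∨ z * g ∈ D}
    mul_mem' := by
      rintro g h (hg | hg) (hh | hh)
      · exact Or.inl (mul_mem hg hh)
      · right
        have h1 : z * (g * h) = g * (z * h) := by
          rw [← mul_assoc, hzc g (hL (hDL hg)), mul_assoc]
        rw [h1]; exact mul_mem hg hh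
      · right
        rw [← mul_assoc]; exact mul_mem hg hh
      · left
        have h1 : g * h = (z * g) * (z * h) := by
          rw [hzc g (hL (hDz g hg)), mul_assoc, ← mul_assoc z z, hzz, one_mul]
        rw [h1]; exact mul_mem hg hh
    one_mem' := Or.inl (one_mem _)
    inv_mem' := by
      rintro g (hg | hg)
      · exact Or.inl (inv_mem hg)
      · right
        have h1 : z * g⁻¹ = (z * g)⁻¹ := by
          have h2 : z⁻¹ = z := inv_eq_of_mul_eq_one_right hzz
          rw [mul_inv_rev, h2, hzc _ (inv_mem (hL (hDz g hg)))]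
        change z * g⁻¹ ∈ D
        rw [h1]
        exact inv_mem hg }
  let S : Set (Subgroup G) := {K | K ≤ L ∧ D ≤ K ∧ z ∈ K ∧ u ∉ K}
  have hne : S.Nonempty := by
    refine ⟨D1, ?_, fun g hg => Or.inl hg, Or.inr (by rw [hzz]; exact one_mem _), ?_⟩
    · rintro g (hg | hg)
      · exact hDL hg
      · exact hDz g hg
    · rintro (h | h)
      · exact (hD u h).1 rfl
      · exact (hD _ h).2 (by rw [← mul_assoc, hzz, one_mul])
  obtain ⟨K, hK, hmax⟩ := (Set.toFinite S).exists_maximal hne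
  obtain ⟨hK1, hK2, hK3, hK4⟩ : K ≤ L ∧ D ≤ K ∧ z ∈ K ∧ u ∉ K := hK
  refine ⟨K, hK1, hK2, hK3, hK4, fun m hm => ?_⟩
  obtain ⟨K', h1, h2, h3⟩ := ext K (hK1.trans hL) hK3 m (hL hm)
  by_cases hu : u ∈ K'
  · right
    rcases h3 u hu with h4 | h4
    · exact absurd h4 hK4
    · rcases C.comm u (hL huL) m (hL hm) with h5 | h5
      · rw [h5]; exact h4
      · rw [h5]; exact mul_mem hK3 h4
  · left
    have h4 : K' ≤ K := by
      apply hmax (show K' ∈ S from ⟨?_, hK2.trans h1, h1 hK3, hu⟩) h1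
      intro g hg
      rcases h3 g hg with h5 | h5
      · exact hK1 h5
      · have h6 : g = m⁻¹ * (m * g) := by group
        rw [h6]; exact mul_mem (inv_mem hm) (hK1 h5)
    exact h4 h2

/-- **no alternating group in case B** (permutation form) -/
theorem altG_false (A : AltG φ) (C : CB P N0 z s ψ) : False := by
  have hzN : z ∈ N0 := C.PN C.zP
  have hzc : ∀ m ∈ N0, z * m = m * z := fun m hm => (C.z_cen m (C.NH hm)).symm
  have hzz := C.z_sq
  -- the base point
  obtain ⟨x, hx⟩ : ∃ x, φ z x ≠ x := by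
    by_contra hcon
    push Not at hcon
    exact C.z_ne (A.inj (by rw [map_one]; exact Equiv.ext hcon))
  have hxM : Mv φ N0 x := ⟨z, hzN, hx⟩
  -- the stabiliser
  let D : Subgroup G := {
    carrier := {g | g ∈ N0 ∧ φ g x = x}
    mul_mem' := by
      rintro g h ⟨h1, h2⟩ ⟨h3, h4⟩
      exact ⟨mul_mem h1 h3, by rw [map_mul, Perm.mul_apply, h4, h2]⟩
    one_mem' := ⟨one_mem _, by rw [map_one]; rfl⟩
    inv_mem' := by
      rintro g ⟨h1, h2⟩
      refine ⟨inv_mem h1, ?_⟩
      have h3 : φ g⁻¹ (φ g x) = x := by rw [← Perm.mul_apply, ← map_mul, inv_mul_cancel, map_one]; rfl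
      rwa [h2] at h3 }
  have hDN : D ≤ N0 := fun g hg => hg.1
  have hzD : z ∉ D := fun h => hx h.2
  have hDsq : ∀ d ∈ D, d * d = 1 := by
    intro d hd
    rcases C.sq d hd.1 with h | h
    · exact h
    · exact absurd (by rw [← h]; exact mul_mem hd hd) hzD
  have hDab : ∀ d ∈ D, ∀ e ∈ D, d * e = e * d := by
    intro d hd e he
    rcases C.comm d hd.1 e he.1 with h | h
    · exact h
    · exfalso
      apply hzD
      have h1 : z = (d * e) * (e * d)⁻¹ := by rw [h]; group
      rw [h1]; exact mul_mem (mul_mem hd he) (inv_mem (mul_mem he hd))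
  obtain ⟨K, hKN, hDK, hzK, hsK, hK⟩ := exists_K C (L := N0) (D := D) le_rfl hDN hzN (u := s) C.sN (by
    intro d hd
    have h1 := hDsq d hd
    constructor
    · rintro rfl
      exact C.z_ne (C.s_sq.symm.trans h1)
    · intro h
      apply C.z_ne
      rw [← C.s_sq, h, mul_assoc, ← mul_assoc d z d, ← hzc d hd.1, mul_assoc z d d, h1, mul_one, hzz])
  -- `K` is bigger than `D ⟨z⟩`
  obtain ⟨u, huK, huD⟩ : ∃ u ∈ K, ∀ d ∈ D, u ≠ d ∧ u ≠ z * d := by
    by_contra hcon
    push Not at hcon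
    -- `K` is abelian
    have h1 : ∀ k ∈ K, k ∈ D ∨ z * k ∈ D := by
      intro k hk
      obtain ⟨d, hd, h⟩ := hcon k hk
      by_cases hkd : k = d
      · left; rw [hkd]; exact hd
      · right; rw [h hkd, ← mul_assoc, hzz, one_mul]; exact hd
    have h2 : ∀ k ∈ K, ∀ l ∈ D, k * l = l * k := by
      intro k hk l hl
      rcases h1 k hk with h | h
      · exact hDab k h l hl
      · have h3 := hDab _ h l hl
        have h4 : z * (k * l) = z * (l * k) := by
          rw [← mul_assoc, h3, ← mul_assoc, ← mul_assoc, hzc l (hDN hl)]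
        exact mul_left_cancel h4
    have h3 : ∀ k ∈ K, ∀ l ∈ K, k * l = l * k := by
      intro k hk l hl
      rcases h1 l hl with h | h
      · exact h2 k hk l h
      · have h3 := h2 k hk _ h
        have h4 : z * (k * l) = z * (l * k) := by
          rw [← mul_assoc z l k, ← h3, ← mul_assoc, ← mul_assoc, hzc k (hKN hk)]
        exact mul_left_cancel h4
    have h4 : ∀ k ∈ K, ∀ l ∈ N0, k * l = l * k := by
      intro k hk l hl
      rcases hK l hl with h | h
      · exact h3 k hk l h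
      · have h5 := h3 k hk _ h
        have h6 : s * (k * l) = s * (l * k) := by
          rw [← mul_assoc s l k, ← h5, ← mul_assoc, ← mul_assoc, C.s_cen k (hKN hk)]
        exact mul_left_cancel h6
    have h5 : N0 ≤ zpowers s := by
      intro k hk
      apply C.cen k hk
      intro l hl
      rcases hK k hk with h | h
      · exact h4 k h l hl
      · have h6 := h4 _ h l hl
        have h7 : s * (k * l) = s * (l * k) := by
          rw [← mul_assoc, h6, ← mul_assoc, ← mul_assoc, C.s_cen l hl]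
        exact mul_left_cancel h7
    have h6 := Subgroup.card_dvd_of_le h5
    rw [C.card, Nat.card_zpowers] at h6
    have h7 : orderOf s ∣ 4 := by
      apply orderOf_dvd_of_pow_eq_one
      rw [show 4 = 2 * 2 by rfl, pow_mul, pow_two s, C.s_sq, pow_two, hzz]
    have h8 := h6.trans h7
    norm_num at h8
  obtain ⟨K2, hK2K, hDK2, hzK2, huK2, hK2⟩ := exists_K C (L := K) (D := D) hKN hDK hzK huK huD
  have huN : u ∈ N0 := hKN huK
  have hsc := C.s_cen
  -- bookkeeping
  have cancel : ∀ g, ∀ i, φ g (φ g⁻¹ i) = i := fun g i => by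
    rw [← Perm.mul_apply, ← map_mul, mul_inv_cancel, map_one]; rfl
  have hsK' : ∀ m ∈ N0, m ∉ K → s * m ∈ K := fun m hm h => (hK m hm).resolve_left h
  have hsK'' : ∀ m ∈ K, s * m ∉ K := by
    intro m hm h
    apply hsK
    have h1 : s = (s * m) * m⁻¹ := by group
    rw [h1]; exact mul_mem h (inv_mem hm)
  have mulK : ∀ m ∈ N0, ∀ l ∈ N0, m ∉ K → l ∉ K → m * l ∈ K := by
    intro m hm l hl h1 h2
    have h3 := mul_mem (hsK' m hm h1) (hsK' l hl h2)
    have h4 : m * l = z * ((s * m) * (s * l)) := by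
      rw [mul_assoc s m, ← mul_assoc m s l, hsc m hm, mul_assoc s m l, ← mul_assoc s s, C.s_sq, ← mul_assoc z z,
        hzz, one_mul]
    rw [h4]; exact mul_mem hzK h3
  have uniq : ∀ m ∈ N0, ∀ l ∈ N0, φ m x = φ l x → l⁻¹ * m ∈ D := by
    intro m hm l hl h
    refine ⟨mul_mem (inv_mem hl) hm, ?_⟩
    rw [map_mul, Perm.mul_apply, h, ← Perm.mul_apply, ← map_mul, inv_mul_cancel, map_one]; rfl
  -- the two sets
  set D2 : Set (Fin n) := {i | ∃ m ∈ N0, m ∉ K ∧ φ m x = i} with hD2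
  set D3 : Set (Fin n) := {i | ∃ m ∈ N0, s * m ∈ K2 ∧ φ m x = i} with hD3
  have mem2 : ∀ m ∈ N0, (φ m x ∈ D2 ↔ m ∉ K) := by
    intro m hm
    constructor
    · rintro ⟨l, hl, hlK, h⟩ hmK
      apply hlK
      have h1 := uniq l hl m hm h
      have h2 : l = m * (m⁻¹ * l) := by group
      rw [h2]; exact mul_mem hmK (hDK h1)
    · intro h
      exact ⟨m, hm, h, rfl⟩
  have mem3 : ∀ m ∈ N0, (φ m x ∈ D3 ↔ s * m ∈ K2) := by
    intro m hm
    constructor
    · rintro ⟨l, hl, hlK, h⟩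
      have h1 := uniq m hm l hl h.symm
      have h2 : s * m = (s * l) * (l⁻¹ * m) := by group
      rw [h2]; exact mul_mem hlK (hDK2 h1)
    · intro h
      exact ⟨m, hm, h, rfl⟩
  have pt : ∀ i, (∃ m ∈ N0, φ m x = i) ∨ (¬ Mv φ N0 i) := by
    intro i
    by_cases hi : Mv φ N0 i
    · exact Or.inl (one_orbit A C hxM hi)
    · exact Or.inr hi
  have mvx : ∀ m ∈ N0, Mv φ N0 (φ m x) := fun m hm => hxM.of_rl ⟨m, hm, rfl⟩
  have not2 : ∀ i, ¬ Mv φ N0 i → i ∉ D2 := by
    rintro i hi ⟨m, hm, -, rfl⟩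
    exact hi (mvx m hm)
  have not3 : ∀ i, ¬ Mv φ N0 i → i ∉ D3 := by
    rintro i hi ⟨m, hm, -, rfl⟩
    exact hi (mvx m hm)
  have hzx : ∀ m, φ z (φ m x) = φ (z * m) x := fun m => by rw [map_mul]; rfl
  have hux : ∀ l m, φ l (φ m x) = φ (l * m) x := fun l m => by rw [map_mul]; rfl
  have hzK' : ∀ m, m ∈ K ↔ z * m ∈ K := fun m => (Subgroup.mul_mem_cancel_left K hzK).symm
  have hzK2' : ∀ m ∈ N0, s * m ∈ K2 ↔ s * (z * m) ∈ K2 := by
    intro m hm
    rw [← mul_assoc, ← hzc s C.sN, mul_assoc]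
    exact (Subgroup.mul_mem_cancel_left K2 hzK2).symm
  have hO2 : ∀ i, i ∈ D2 ↔ φ z i ∈ D2 := by
    intro i
    rcases pt i with ⟨m, hm, rfl⟩ | hi
    · rw [hzx, mem2 m hm, mem2 _ (mul_mem hzN hm), ← hzK']
    · rw [not_mv_apply hzN hi]
  have hO3 : ∀ i, i ∈ D3 ↔ φ z i ∈ D3 := by
    intro i
    rcases pt i with ⟨m, hm, rfl⟩ | hi
    · rw [hzx, mem3 m hm, mem3 _ (mul_mem hzN hm), ← hzK2' m hm]
    · rw [not_mv_apply hzN hi]
  set g : Perm (Fin n) := res (φ z) D2 hO2 with hg
  set a : Perm (Fin n) := res (φ z) D3 hO3 with ha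
  have g1 : ∀ m ∈ N0, m ∉ K → g (φ m x) = φ (z * m) x := fun m hm h => by
    rw [hg, res_mem ((mem2 m hm).2 h), hzx]
  have g2 : ∀ m ∈ N0, m ∈ K → g (φ m x) = φ m x := fun m hm h => by
    rw [hg, res_not (fun h' => (mem2 m hm).1 h' h)]
  have g3 : ∀ i, ¬ Mv φ N0 i → g i = i := fun i hi => by rw [hg, res_not (not2 i hi)]
  have a1 : ∀ m ∈ N0, s * m ∈ K2 → a (φ m x) = φ (z * m) x := fun m hm h => by
    rw [ha, res_mem ((mem3 m hm).2 h), hzx]
  have a2 : ∀ m ∈ N0, s * m ∉ K2 → a (φ m x) = φ m x := fun m hm h => by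
    rw [ha, res_not (fun h' => h ((mem3 m hm).1 h'))]
  have a3 : ∀ i, ¬ Mv φ N0 i → a i = i := fun i hi => by rw [ha, res_not (not3 i hi)]
  -- `g` is even
  have hga : g = a * (φ u * a * (φ u)⁻¹) := by
    ext i
    congr 1
    rw [Perm.mul_apply, Perm.mul_apply, Perm.mul_apply, ← map_inv]
    rcases pt i with ⟨m, hm, rfl⟩ | hi
    · have hum : u⁻¹ * m ∈ N0 := mul_mem (inv_mem huN) hm
      have hs1 : s * (u⁻¹ * m) = u⁻¹ * (s * m) := by
        rw [← mul_assoc, ← hsc _ (inv_mem huN), mul_assoc]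
      rw [hux]
      by_cases hmK : m ∈ K
      · have h1 : s * m ∉ K2 := fun h => hsK'' m hmK (hK2K h)
        have h2 : s * (u⁻¹ * m) ∉ K2 := fun h => hsK'' _ (mul_mem (inv_mem huK) hmK) (hK2K h)
        rw [a2 _ hum h2, hux, mul_inv_cancel_left, a2 m hm h1, g2 m hm hmK]
      · rw [g1 m hm hmK]
        by_cases h1 : s * m ∈ K2
        · have h2 : s * (u⁻¹ * m) ∉ K2 := by
            intro h
            rw [hs1] at h
            exact huK2 ((inv_mem_iff).1 ((Subgroup.mul_mem_cancel_right K2 h1).1 h))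
          rw [a2 _ hum h2, hux, mul_inv_cancel_left, a1 m hm h1]
        · have h2 : s * (u⁻¹ * m) ∈ K2 := by
            rw [hs1]
            have h3 := (hK2 _ (hsK' m hm hmK)).resolve_left h1
            have h4 : u⁻¹ * (s * m) = (u * u)⁻¹ * (u * (s * m)) := by group
            rw [h4]
            refine mul_mem (inv_mem ?_) h3
            rcases C.sq u huN with h | h
            · rw [h]; exact one_mem _
            · rw [h]; exact hzK2
          rw [a1 _ hum h2, hux]
          have h5 : u * (z * (u⁻¹ * m)) = z * m := by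
            rw [← mul_assoc u z, ← hzc u huN, mul_assoc, mul_inv_cancel_left]
          rw [h5, a2 _ (mul_mem hzN hm) (fun h => h1 ((hzK2' m hm).2 h))]
    · rw [not_mv_apply (inv_mem huN) hi, a3 i hi, not_mv_apply huN hi, a3 i hi, g3 i hi]
  have hgs : sign g = 1 := by
    rw [hga]
    simp only [map_mul, map_inv]
    rcases Int.units_eq_one_or (sign a) with h5 | h5 <;> simp [h5]
  obtain ⟨γ, hγ⟩ := A.lift g hgs
  have cK : ∀ m ∈ K, γ * m = m * γ := by
    intro m hmK
    have hm := hKN hmK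
    apply A.inj
    rw [map_mul, map_mul, hγ]
    ext i
    congr 1
    rw [Perm.mul_apply, Perm.mul_apply]
    rcases pt i with ⟨l, hl, rfl⟩ | hi
    · rw [hux]
      by_cases hlK : l ∈ K
      · rw [g2 l hl hlK, g2 _ (mul_mem hm hl) (mul_mem hmK hlK), hux]
      · have h1 : m * l ∉ K := fun h => hlK ((Subgroup.mul_mem_cancel_left K hmK).1 h)
        rw [g1 l hl hlK, g1 _ (mul_mem hm hl) h1, hux, ← mul_assoc, hzc m hm, mul_assoc]
    · rw [not_mv_apply hm hi, g3 i hi, not_mv_apply hm hi]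
  have cN : ∀ m ∈ N0, m ∉ K → γ * m = z * (m * γ) := by
    intro m hm hmK
    apply A.inj
    rw [map_mul, map_mul, map_mul, hγ]
    ext i
    congr 1
    rw [Perm.mul_apply, Perm.mul_apply, Perm.mul_apply]
    rcases pt i with ⟨l, hl, rfl⟩ | hi
    · rw [hux]
      by_cases hlK : l ∈ K
      · have h1 : m * l ∉ K := fun h => hmK ((Subgroup.mul_mem_cancel_right K hlK).1 h)
        rw [g2 l hl hlK, g1 _ (mul_mem hm hl) h1, hux, hux]
      · rw [g1 l hl hlK, g2 _ (mul_mem hm hl) (mulK m hm l hl hmK hlK), hux, hux]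
        have h1 : z * (m * (z * l)) = m * l := by
          rw [← mul_assoc m z, ← hzc m hm, mul_assoc z m l, ← mul_assoc z z, hzz, one_mul]
        rw [h1]
    · rw [not_mv_apply hm hi, g3 i hi, not_mv_apply hm hi, not_mv_apply hzN hi]
  have hγH : γ ∈ normalizer (P : Set G) := by
    apply C.key
    intro m hm
    by_cases hmK : m ∈ K
    · exact Or.inl (cK m hmK)
    · exact Or.inr (cN m hm hmK)
  have hγz : γ * z = z * γ := cK z hzK
  have hγN : γ ∈ normalizer (N0 : Set G) := by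
    rw [mem_normalizer_iff]
    intro m
    constructor
    · intro hm
      by_cases hmK : m ∈ K
      · rw [cK m hmK, mul_inv_cancel_right]; exact hm
      · rw [cN m hm hmK]
        have h1 : z * (m * γ) * γ⁻¹ = z * m := by group
        rw [h1]; exact mul_mem hzN hm
    · intro hm
      obtain ⟨l, hl⟩ : ∃ l, l = γ * m * γ⁻¹ := ⟨_, rfl⟩
      rw [← hl] at hm
      have h1 : m = γ⁻¹ * l * γ := by rw [hl]; group
      rw [h1]
      by_cases hmK : l ∈ K
      · rw [mul_assoc, ← cK l hmK, inv_mul_cancel_left]; exact hm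
      · have h2 := cN l hm hmK
        have h3 : l * γ = γ * (z * l) := by
          rw [← mul_assoc, hγz, mul_assoc z, h2, ← mul_assoc z z, hzz, one_mul]
        rw [mul_assoc, h3, inv_mul_cancel_left]; exact mul_mem hzN hm
  -- `ψ γ = 1`
  have hψ : ψ ⟨γ, hγH⟩ = 1 := by
    have hcom : ∀ π : Perm (Fin 6), sign π = 1 → ψ ⟨γ, hγH⟩ * π = π * ψ ⟨γ, hγH⟩ := by
      intro π hπ
      obtain ⟨e, he, heψ⟩ := AF_even A C hπ
      rw [← heψ, ← map_mul, ← map_mul]
      congr 1
      apply Subtype.ext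
      change γ * e = e * γ
      apply A.inj
      rw [map_mul, map_mul, hγ]
      refine (show Equiv.Perm.Disjoint g (φ e) from fun i => ?_).commute.eq
      by_cases hi : Mv φ N0 i
      · exact Or.inr (he i hi)
      · exact Or.inl (g3 i hi)
    set w := ψ ⟨γ, hγH⟩ with hw
    by_contra hne
    obtain ⟨i, hi⟩ : ∃ i, w i ≠ i := by
      by_contra hc
      push Not at hc
      exact hne (Equiv.ext hc)
    obtain ⟨b, c, hbi, hbw, hci, hcw, hbc⟩ : ∃ b c : Fin 6, i ≠ b ∧ w i ≠ b ∧ i ≠ c ∧ w i ≠ c ∧ b ≠ c := by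
      generalize w i = j at hi
      revert i j
      decide
    have h1 := hcom (cyc i b c) (sign_cyc hbi hbc)
    have h2 : w (cyc i b c i) = cyc i b c (w i) := congrArg (fun f : Perm (Fin 6) => f i) h1
    rw [cyc_1 hbi hci hbc, cyc_of_ne hi hbw hcw] at h2
    exact hbi (w.injective h2).symm
  have h1 : γ * s = s * γ := (C.inv_s ⟨γ, hγH⟩ hγN).1 (by rw [hψ]; exact map_one _)
  have h2 := cN s C.sN hsK
  rw [h1] at h2
  exact C.z_ne (by simpa using h2)

/-- **S1920, case B: no alternating group.** -/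
theorem dead_alt (e : G ≃* alternatingGroup (Fin n)) (C : CB P N0 z s ψ) : False := by
  refine altG_false (φ := (alternatingGroup (Fin n)).subtype.comp e.toMonoidHom) ⟨?_, ?_, ?_⟩ C
  · intro g h hgh
    exact e.injective (Subtype.ext hgh)
  · intro g
    exact (e g).2
  · intro σ hσ
    refine ⟨e.symm ⟨σ, mem_alternatingGroup.2 hσ⟩, ?_⟩
    change ((e (e.symm ⟨σ, _⟩) : alternatingGroup (Fin n)) : Perm (Fin n)) = σ
    rw [e.apply_symm_apply]

end Cfsg.Agent.H282.Co3
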