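import Cfsg.Agent.H738.C3.Tools
import Cfsg.Agent.H841.Phi

/-!
# S1920, case B: the row `Fi24'` (helper282)

`C(5A) = 5 × S₉` in `Fi24`; `N0` is embedded in `A₉` and commutes with an element of order 4 of `A₉`, whose
centralizer in `S₉` has order 48 or 32.
-/

set_option autoImplicit false

open Subgroup Equiv Equiv.Perm

namespace Cfsg.Agent.H282.Co3

open Cfsg Cfsg.Agent.H13.Co3 Cfsg.Agent.H841.Five Cfsg.Agent.LThreeFi24.FiveConj
open Cfsg.Agent.LThreeFi24.SNine (y0 R)
open Cfsg.Agent.R08.FiTwentyFour (L sgn_L mem_commutator_iff)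
open Cfsg.Agent.Fischer.Fi24Final (sgn)
open Cfsg.Spor (Fi24)

/-- centralizers of even elements of order 4 of `S₉` -/
theorem cent_nine (σ : Perm (Fin 9)) (h4 : σ ^ 4 = 1) (h2 : σ ^ 2 ≠ 1) (hs : sign σ = 1) :
    ¬ 64 ∣ Nat.card ↥(centralizer ({σ} : Set (Perm (Fin 9)))) := by
  classical
  have h1 : ∀ k ∈ σ.cycleType, k = 2 ∨ k = 4 := by
    intro k hk
    have h2 := Equiv.Perm.two_le_of_mem_cycleType hk
    have h3 : k ∣ 4 := (Equiv.Perm.dvd_of_mem_cycleType hk).trans (orderOf_dvd_of_pow_eq_one h4)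
    have h5 : k ≤ 4 := Nat.le_of_dvd (by norm_num) h3
    interval_cases k
    · exact Or.inl rfl
    · norm_num at h3
    · exact Or.inr rfl
  -- there is a 4
  have h3 : 4 ∈ σ.cycleType := by
    by_contra hcon
    apply h2
    apply orderOf_dvd_iff_pow_eq_one.1
    rw [← Equiv.Perm.lcm_cycleType]
    apply Multiset.lcm_dvd.2
    intro k hk
    rcases h1 k hk with rfl | rfl
    · exact dvd_rfl
    · exact absurd hk hcon
  have h5 : σ.cycleType.sum ≤ 9 := by
    rw [Equiv.Perm.sum_cycleType]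
    exact (Finset.card_le_univ _).trans (by simp)
  have h6 : sign σ = (-1) ^ (σ.cycleType.sum + Multiset.card σ.cycleType) := sign_of_cycleType σ
  have h7 := Equiv.Perm.nat_card_centralizer σ
  rw [h7]
  clear h7
  generalize hm : σ.cycleType = m at h1 h3 h5 h6
  -- the multiset
  have hmem : m = Multiset.replicate (m.count 4) 4 + Multiset.replicate (m.count 2) 2 := by
    ext k
    rw [Multiset.count_add, Multiset.count_replicate, Multiset.count_replicate]
    by_cases hk : k ∈ m
    · rcases h1 k hk with rfl | rfl <;> simp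
    · rw [Multiset.count_eq_zero_of_notMem hk]
      by_cases h4 : 4 = k
      · subst h4; simp [Multiset.count_eq_zero_of_notMem hk]
      · by_cases h2 : 2 = k
        · subst h2; simp [Multiset.count_eq_zero_of_notMem hk]
        · simp [h4, h2]
  have hc : 1 ≤ m.count 4 := Multiset.one_le_count_iff_mem.2 h3
  generalize m.count 4 = a at hmem hc
  generalize m.count 2 = b at hmem
  subst hmem
  rw [hs] at h6
  simp only [Multiset.sum_add, Multiset.sum_replicate, smul_eq_mul, Multiset.card_add, Multiset.card_replicate] at h5 h6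
  have ha : a ≤ 2 := by omega
  have hb : b ≤ 2 := by omega
  interval_cases a <;> interval_cases b <;> first | omega | (revert h6; decide)

theorem sgn_Phi9 (τ : Perm (Fin 9)) : sgn (Phi τ) = sign τ := by
  induction τ using Equiv.Perm.swap_induction_on with
  | one => rw [map_one, map_one, map_one]
  | swap_mul f x z hxz ih =>
    rw [map_mul, map_mul, ih, map_mul, Perm.sign_swap hxz]
    congr 1
    exact sgn_L (Phi_swap_mem_L hxz)

universe u

/-- **S1920, case B: the row `Fi24'`** -/
theorem row_Fi24p {G : Type u} [Group G] [Finite G] (h : Spor.IsoFi24' G) {P N0 : Subgroup G} {z s : G}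
    {ψ : ↥(normalizer (P : Set G)) →* Perm (Fin 6)} (C : CB P N0 z s ψ) : False := by
  classical
  obtain ⟨e⟩ := h
  obtain ⟨y, hy, hyc⟩ := H738.C3.exists_five C
  -- the embedding
  let f : G →* Fi24 := (Subgroup.subtype _).comp e.toMonoidHom
  have hf : Function.Injective f := fun a b hab => e.injective (Subtype.ext hab)
  have hfs : ∀ a, sgn (f a) = 1 := fun a => mem_commutator_iff.1 (e a).2
  have hfy : orderOf (f y) = 5 := by rw [orderOf_injective f hf, hy]
  obtain ⟨g, hg⟩ := exists_conj_five hfy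
  -- the relation
  have key : ∀ n ∈ N0, ∃ (i : ℕ) (σ : Perm (Fin 9)), R (g * f n * g⁻¹) σ ∧ g * f n * g⁻¹ = y0 ^ i * Phi σ := by
    intro n hn
    have h1 : (g * f n * g⁻¹) * y0 = y0 * (g * f n * g⁻¹) := by
      rw [← hg]
      have h2 : f n * f y = f y * f n := by rw [← map_mul, ← map_mul, hyc n hn]
      calc g * f n * g⁻¹ * (g * f y * g⁻¹) = g * (f n * f y) * g⁻¹ := by group
        _ = g * (f y * f n) * g⁻¹ := by rw [h2]
        _ = g * f y * g⁻¹ * (g * f n * g⁻¹) := by group
    obtain ⟨i, σ, -, h2, h3⟩ := exists_of_comm h1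
    exact ⟨i, σ, h2, h3⟩
  choose! idx π hπ hπ' using key
  have hmul : ∀ a ∈ N0, ∀ b ∈ N0, π (a * b) = π a * π b := by
    intro a ha b hb
    refine (hπ _ (mul_mem ha hb)).uniq ?_
    have h1 := (hπ a ha).mul (hπ b hb)
    have h2 : g * f a * g⁻¹ * (g * f b * g⁻¹) = g * f (a * b) * g⁻¹ := by rw [map_mul]; group
    rwa [h2] at h1
  have hone : π 1 = 1 := by
    have h1 := hπ 1 (one_mem _)
    rw [map_one, mul_one, mul_inv_cancel] at h1
    exact h1.uniq R.one
  let Th : ↥N0 →* Perm (Fin 9) :=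
    { toFun := fun a => π a
      map_one' := hone
      map_mul' := fun a b => hmul a a.2 b b.2 }
  have hinj : Function.Injective Th := by
    rw [injective_iff_map_eq_one]
    rintro ⟨a, ha⟩ ha1
    have h1 : π a = 1 := ha1
    have h2 := hπ' a ha
    rw [h1, map_one, mul_one] at h2
    have h3 : (g * f a * g⁻¹) ^ 5 = 1 := by
      rw [h2, ← pow_mul, mul_comm, pow_mul]
      have : y0 ^ 5 = 1 := by rw [← orderOf_y0, pow_orderOf_eq_one]
      rw [this, one_pow]
    have h4 : a ^ 5 = 1 := by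
      apply hf
      rw [map_pow, map_one]
      have h5 : (g * f a * g⁻¹) ^ 5 = g * f a ^ 5 * g⁻¹ := conj_pow
      rw [h5] at h3
      have h6 : f a ^ 5 = g⁻¹ * (g * f a ^ 5 * g⁻¹) * g := by group
      rw [h6, h3]; group
    obtain ⟨k, hk⟩ := C.N_two ⟨a, ha⟩
    have hk' : a ^ 2 ^ k = 1 := congrArg Subtype.val hk
    have h7 : orderOf a ∣ 1 := by
      have h8 : (5 : ℕ).Coprime (2 ^ k) := Nat.Coprime.pow_right k (by norm_num)
      exact h8 ▸ Nat.dvd_gcd (orderOf_dvd_of_pow_eq_one h4) (orderOf_dvd_of_pow_eq_one hk')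
    exact Subtype.ext (orderOf_eq_one_iff.1 (Nat.dvd_one.1 h7))
  -- the element of order 4
  let s' : ↥N0 := ⟨s, C.sN⟩
  have hs4 : s' ^ 4 = 1 := by
    apply Subtype.ext
    change s ^ 4 = 1
    rw [show 4 = 2 * 2 by rfl, pow_mul, pow_two s, C.s_sq, pow_two, C.z_sq]
  have hs2 : s' ^ 2 ≠ 1 := by
    intro h1
    have h2 : s ^ 2 = 1 := congrArg Subtype.val h1
    rw [pow_two, C.s_sq] at h2
    exact C.z_ne h2
  refine cent_nine (Th s') ?_ ?_ ?_ ?_
  · rw [← map_pow, hs4, map_one]
  · rw [← map_pow]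
    intro h1
    exact hs2 (hinj (h1.trans (map_one Th).symm))
  · have h1 := hπ' s C.sN
    have h2 : sgn (g * f s * g⁻¹) = 1 := by
      rw [map_mul, map_mul, map_inv, hfs, mul_one, mul_inv_cancel]
    rw [h1, map_mul, sgn_Phi9, map_pow] at h2
    have h3 : sgn y0 = 1 := by
      have h4 : sgn y0 ^ 5 = 1 := by
        rw [← map_pow]
        have : y0 ^ 5 = 1 := by rw [← orderOf_y0, pow_orderOf_eq_one]
        rw [this, map_one]
      rcases Int.units_eq_one_or (sgn y0) with h5 | h5
      · exact h5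
      · rw [h5] at h4; exact absurd h4 (by decide)
    rw [h3, one_pow, one_mul] at h2
    exact h2
  · have h1 : Nat.card ↥Th.range = 64 := by
      rw [← C.card]
      exact (Nat.card_congr (MonoidHom.ofInjective hinj).toEquiv).symm
    rw [← h1]
    apply card_dvd_of_le
    rintro _ ⟨a, rfl⟩
    rw [mem_centralizer_singleton_iff, ← map_mul, ← map_mul]
    congr 1
    exact Subtype.ext (C.s_cen a a.2)

end Cfsg.Agent.H282.Co3

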